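import Mathlib
import Cfsg.Agent.Lib.ZStar.Cor

/-!
# A non-cyclic simple group contains a Klein four-group, given the Odd Order statement for it.
-/

set_option autoImplicit false
set_option linter.unusedSectionVars false

namespace Cfsg.Agent.Lib.AfterFT.Klein

open Cfsg Subgroup
open Cfsg.Agent.Lib.Isolated.Basic

universe u

variable {G : Type u} [Group G] [Finite G]

/-- Two distinct commuting involutions generate a Klein four-group. -/
theorem exists_klein {z w : G} (hz : orderOf z = 2) (hw : orderOf w = 2) (hzw : Commute z w)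
    (hne : w ≠ z) : ∃ E : Subgroup G, IsKleinFour E := by
  classical
  have hz2 : z * z = 1 := by rw [← sq, ← hz]; exact pow_orderOf_eq_one z
  have hw2 : w * w = 1 := by rw [← sq, ← hw]; exact pow_orderOf_eq_one w
  have hz1 : z ≠ 1 := by rintro rfl; simp at hz
  have hw1 : w ≠ 1 := by rintro rfl; simp at hw
  have hzwc : z * w = w * z := hzw
  have hcomp1 : z * w ≠ 1 := by
    intro h
    apply hne
    calc w = z * z * w := by rw [hz2, one_mul]
      _ = z * (z * w) := by group
      _ = z := by rw [h, mul_one]
  have hcomp2 : z * w ≠ z := by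
    intro h; apply hw1; simpa using h
  have hcomp3 : z * w ≠ w := by
    intro h; apply hz1; simpa using h
  have hzz : z * (z * w) = w := by rw [← mul_assoc, hz2, one_mul]
  have hzw' : z * w * z = w := by rw [mul_assoc, ← hzwc, ← mul_assoc, hz2, one_mul]
  let E : Subgroup G :=
    { carrier := {1, z, w, z * w}
      one_mem' := by simp
      inv_mem' := by
        intro x hx
        have hzi : z⁻¹ = z := inv_eq_of_mul_eq_one_left hz2
        have hwi : w⁻¹ = w := inv_eq_of_mul_eq_one_left hw2
        simp only [Set.mem_insert_iff, Set.mem_singleton_iff] at hx ⊢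
        rcases hx with rfl | rfl | rfl | rfl
        · simp
        · simp [hzi]
        · simp [hwi]
        · right; right; right
          rw [mul_inv_rev, hzi, hwi, hzwc]
      mul_mem' := by
        intro a b ha hb
        have e1 : z * w * w = z := by rw [mul_assoc, hw2, mul_one]
        have e2 : w * z = z * w := hzwc.symm
        have e3 : w * (z * w) = z := by rw [← mul_assoc, e2, e1]
        have e4 : z * w * (z * w) = 1 := by
          rw [mul_assoc, e3, hz2]
        simp only [Set.mem_insert_iff, Set.mem_singleton_iff] at ha hb ⊢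
        rcases ha with rfl | rfl | rfl | rfl <;> rcases hb with rfl | rfl | rfl | rfl <;>
          simp [hz2, hw2, hzz, hzw', e1, e2, e3, e4] }
  refine ⟨E, ?_⟩
  have hmem : ∀ x : G, x ∈ E ↔ x = 1 ∨ x = z ∨ x = w ∨ x = z * w := fun x => Iff.rfl
  refine ⟨?_, ?_⟩
  · have hset : ((E : Subgroup G) : Set G) = ↑({1, z, w, z * w} : Finset G) := by
      ext x
      simp [hmem]
    show Nat.card (E : Set G) = 4
    rw [Nat.card_coe_set_eq, hset, Set.ncard_coe_finset]
    rw [Finset.card_insert_of_notMem, Finset.card_insert_of_notMem, Finset.card_insert_of_notMem,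
      Finset.card_singleton]
    · simp [hcomp3.symm]
    · simp [hcomp2.symm, hne.symm]
    · simp [hz1.symm, hw1.symm, hcomp1.symm]
  · have hnt : Nontrivial E := ⟨⟨⟨z, (hmem z).2 (Or.inr (Or.inl rfl))⟩, 1, fun h => hz1 (by
      simpa using congrArg Subtype.val h)⟩⟩
    haveI : Fact (Nat.Prime 2) := ⟨Nat.prime_two⟩
    refine (Monoid.exponent_eq_prime_iff Nat.prime_two).2 ?_
    intro g hg
    apply orderOf_eq_prime
    · apply Subtype.ext
      have e1 : z * w * (z * w) = 1 := by
        rw [mul_assoc, ← mul_assoc w, ← hzwc, mul_assoc, hw2, mul_one, hz2]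
      rcases (hmem g).1 g.2 with h | h | h | h <;> simp only [sq, Subgroup.coe_mul, h, hz2, hw2, e1,
        Subgroup.coe_one, mul_one]
    · exact hg

/-- Conditional form of S0204. -/
theorem main [IsSimpleGroup G] (hG : ¬ IsCyclic G) (ft : Odd (Nat.card G) → Group.IsSolvable G) :
    ∃ E : Subgroup G, IsKleinFour E := by
  classical
  by_contra hno
  -- Commutative simple groups are cyclic.
  have hcomm : ¬ ∀ a b : G, a * b = b * a := by
    intro hc
    apply hG
    obtain ⟨x, hx⟩ := exists_ne (1 : G)
    have hn : (zpowers x).Normal := ⟨fun n hn g => by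
      have : g * n * g⁻¹ = n := by rw [hc g n]; group
      rwa [this]⟩
    rcases IsSimpleGroup.eq_bot_or_eq_top_of_normal (zpowers x) hn with h | h
    · exact absurd (Subgroup.zpowers_eq_bot.mp h) hx
    · exact ⟨⟨x, fun y => by
        have : y ∈ zpowers x := h ▸ Subgroup.mem_top y
        exact this⟩⟩
  -- So G is not of odd order.
  have heven : 2 ∣ Nat.card G := by
    by_contra h2
    have hodd : Odd (Nat.card G) := Nat.not_even_iff_odd.mp (fun he => h2 he.two_dvd)
    have hs := ft hodd
    apply hcomm
    have hder : commutator G ≠ ⊤ := by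
      intro htop
      have hd : ∀ n, derivedSeries G n = ⊤ := by
        intro n
        induction n with
        | zero => rfl
        | succ n ih => rw [derivedSeries_succ, ih]; exact htop
      obtain ⟨n, hn⟩ := hs.solvable
      have : (⊤ : Subgroup G) = ⊥ := by rw [← hn, hd]
      exact top_ne_bot this
    have hb : commutator G = ⊥ := by
      rcases IsSimpleGroup.eq_bot_or_eq_top_of_normal (commutator G) inferInstance with h | h
      · exact h
      · exact absurd h hder
    intro a b
    have : a * b * a⁻¹ * b⁻¹ ∈ commutator G := by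
      rw [_root_.commutator_def]
      exact Subgroup.commutator_mem_commutator (Subgroup.mem_top a) (Subgroup.mem_top b)
    rw [hb, Subgroup.mem_bot, mul_inv_eq_one, mul_inv_eq_iff_eq_mul] at this
    exact this
  -- An involution.
  haveI : Fact (Nat.Prime 2) := ⟨Nat.prime_two⟩
  obtain ⟨z, hz⟩ := exists_prime_orderOf_dvd_card' 2 heven
  -- It is isolated.
  have hiso : IsIsolatedInvolution z := by
    refine ⟨hz, fun g hg => ?_⟩
    by_contra hne
    have hgz : orderOf (g * z * g⁻¹) = 2 := by
      have : g * z * g⁻¹ = MulAut.conj g z := rfl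
      rw [this, MulEquiv.orderOf_eq]; exact hz
    exact hno (exists_klein hz hgz hg hne)
  -- O(G) is trivial.
  have hcore : pPrimeCore 2 G = ⊥ ∨ pPrimeCore 2 G = ⊤ :=
    IsSimpleGroup.eq_bot_or_eq_top_of_normal _ inferInstance
  have hzc := Cfsg.Agent.Lib.ZStar.Cor.zstar' hiso
  rcases hcore with h | h
  · -- z is central
    have hcent : ∀ g : G, g * z = z * g := by
      intro g
      have := hzc g
      rw [h, Subgroup.mem_bot] at this
      have h2 : z * g * z⁻¹ = g := by
        rwa [mul_inv_eq_one] at this
      rw [mul_inv_eq_iff_eq_mul] at h2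
      exact h2.symm
    have hzin : z ∈ Subgroup.center G := by
      rw [Subgroup.mem_center_iff]; exact hcent
    have hz1 : z ≠ 1 := by rintro rfl; simp at hz
    rcases IsSimpleGroup.eq_bot_or_eq_top_of_normal (Subgroup.center G) inferInstance with hc | hc
    · rw [hc, Subgroup.mem_bot] at hzin; exact hz1 hzin
    · apply hcomm
      intro a b
      have : a ∈ Subgroup.center G := hc ▸ Subgroup.mem_top a
      exact (Subgroup.mem_center_iff.mp this b).symm
  · -- G of odd order, contradiction
    have hodd := Cfsg.Agent.Lib.ZStar.Cor.odd_card_core (G := G)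
    rw [h] at hodd
    rw [Subgroup.card_top] at hodd
    exact (Nat.not_even_iff_odd.mpr hodd) (even_iff_two_dvd.mpr heven)

end Cfsg.Agent.Lib.AfterFT.Klein
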